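import Cfsg.Agent.DRG.C7
import Cfsg.Agent.FT.Final

set_option autoImplicit false

namespace Cfsg.Lib.DRG

open MulAction Cfsg.Lib.Perm.Derange Subgroup

section
variable {G Ω : Type*} [Group G] [Finite G] [MulAction G Ω] [Finite Ω] [IsPretransitive G Ω]
  {Q : Subgroup G} {δ : Ω} {q : ℕ}

theorem Reg.ne_bot (h : Reg Q δ q) : Q ≠ ⊥ := by
  intro hb
  have := h.toRQ.card
  rw [hb, Subgroup.card_bot] at this
  have := h.two
  omega

theorem Reg.normal_of (h : Reg Q δ q) (hn : (Q.subgroupOf (der G Ω)).Normal) : Q.Normal := by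
  have h1 : der G Ω ≤ Subgroup.normalizer (Q : Set G) :=
    (Subgroup.normal_subgroupOf_iff_le_normalizer h.le).mp hn
  have h2 : Subgroup.normalizer (Q : Set G) = ⊤ := by
    rw [eq_top_iff, ← h.cov]
    exact sup_le inf_le_left h1
  exact Subgroup.normalizer_eq_top_iff.mp h2

/-- a nontrivial abelian normal subgroup equals `Q` -/
theorem Reg.eq_of_ab (h : Reg Q δ q) {A : Subgroup G} (hA : A.Normal) (hc : IsMulCommutative A)
    (h1 : A ≠ ⊥) : Q.Normal := by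
  have hab : ∀ x ∈ A, ∀ y ∈ A, x * y = y * x := fun x hx y hy =>
    congrArg Subtype.val (hc.1.1 ⟨x, hx⟩ ⟨y, hy⟩)
  have hcov : ((⊤ : Subgroup G) ⊓ stabilizer G δ) ⊔ der G Ω = ⊤ := by
    exact eq_top_iff.mpr (h.cov.ge.trans (sup_le_sup_right (inf_le_inf_right _ le_top) _))
  have hmv : ∃ y ∈ A, y • δ ≠ δ := by
    by_contra! hh
    refine h1 (eq_bot_iff.mpr fun y hy => h.fai y fun ω => ?_)
    obtain ⟨k, rfl⟩ := exists_smul_eq G δ ω
    have := hh _ (hA.conj_mem y hy k⁻¹)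
    rw [inv_inv, mul_smul, mul_smul, inv_smul_eq_iff] at this
    exact this
  have htr : ∀ ω : Ω, ∃ y ∈ A, y • δ = ω := by
    by_contra! hh
    obtain ⟨ω, hω⟩ := hh
    obtain ⟨k, rfl⟩ := exists_smul_eq G δ ω
    have := bl hcov le_top (fun a _ y hy => hA.conj_mem y hy a) hmv ⟨k, trivial, hω⟩
    have := h.sm
    omega
  -- every element of `Q` lies in `A`: `Q` acts on `A` with a fixed point
  have hreg : ∀ x ∈ A, ∀ ω : Ω, x • ω = ω → x = 1 := by
    intro x hx ω hω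
    refine h.fai x fun ω' => ?_
    obtain ⟨a, ha, rfl⟩ := htr ω
    obtain ⟨b, hb, rfl⟩ := htr ω'
    have h2 : x • δ = δ := by
      rw [smul_smul, hab x hx a ha, mul_smul] at hω
      exact smul_left_cancel a hω
    rw [smul_smul, hab x hx b hb, mul_smul, h2]
  have hRA : RQ A δ := ⟨hab, htr, hreg⟩
  have hcard : Nat.card A = Nat.card Q := hRA.card.trans h.toRQ.card.symm
  haveI := Fact.mk h.prime
  obtain ⟨k, hk⟩ := IsPGroup.iff_card.mp h.pg
  have hpA : IsPGroup q A := IsPGroup.iff_card.mpr ⟨k, hcard.trans hk⟩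
  haveI : Nontrivial Q := (Subgroup.nontrivial_iff_ne_bot Q).mpr h.ne_bot
  -- `A ⊔ Q` is a `q`-group, its centre meets `A`
  have hp : IsPGroup q ↥(Q ⊔ A) := h.pg.to_sup_of_normal_right hpA
  have hAD : A ≤ der G Ω := by
    intro x hx
    by_cases hx1 : x = 1
    · exact hx1 ▸ one_mem _
    · exact Subgroup.subset_closure fun ω hω => hx1 (hreg x hx ω hω)
  have hle : Q ⊔ A ≤ der G Ω := sup_le h.le hAD
  have hst : ∀ x ∈ Q ⊔ A, x • δ = δ → x = 1 := by
    intro x hx hδ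
    obtain ⟨j, hj⟩ := hp ⟨x, hx⟩
    have hj' : x ^ q ^ j = 1 := congrArg Subtype.val hj
    have h2 : orderOf x ∣ Nat.card ↥(der G Ω ⊓ stabilizer G δ) :=
      Subgroup.orderOf_dvd_natCard _ ⟨hle hx, hδ⟩
    have h3 : orderOf x ∣ q ^ j := orderOf_dvd_of_pow_eq_one hj'
    have h4 : (q ^ j).Coprime (Nat.card ↥(der G Ω ⊓ stabilizer G δ)) :=
      Nat.Coprime.pow_left _ ((Nat.Prime.coprime_iff_not_dvd h.prime).mpr h.cop)
    exact orderOf_eq_one_iff.mp (Nat.eq_one_of_dvd_coprimes h4 h3 h2)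
  have hQA : Q = A := by
    have hQ : Q ≤ A := by
      intro x hx
      obtain ⟨a, ha, hax⟩ := htr (x • δ)
      have h5 : a⁻¹ * x = 1 := hst _ (mul_mem (mem_sup_right (inv_mem ha)) (mem_sup_left hx))
        (by rw [mul_smul, inv_smul_eq_iff, hax])
      rw [inv_mul_eq_one] at h5
      exact h5 ▸ ha
    exact Subgroup.eq_of_le_of_card_ge hQ hcard.le
  exact hQA ▸ hA

theorem Reg.normal (h : Reg Q δ q) : Q.Normal := by
  classical
  letI : Fintype (der G Ω) := Fintype.ofFinite _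
  obtain ⟨e, t, ht⟩ := h.th
  letI : Fintype (Q.subgroupOf (der G Ω)) := Fintype.ofFinite _
  rcases ht.chr with hn | ho
  · exact h.normal_of hn
  · by_contra hQ
    have hna : ∀ N : Subgroup G, N.Normal → IsMulCommutative ↥N → N = ⊥ := by
      intro N hN hc
      by_contra h1
      exact hQ (h.eq_of_ab hN hc h1)
    have h1 := not_solv hna (der_normal (G := G) (Ω := Ω)) (Cfsg.Lib.FT.odd_order_solvable ho)
    exact h.ne_bot (le_bot_iff.mp (h1 ▸ h.le))

/-- the group is a Frobenius group -/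
theorem Reg.frob (h : Reg Q δ q) {g : G} (hg : g ≠ 1) : Nat.card (fixedBy Ω g) ≤ 1 := by
  have hn := h.normal
  rw [Finite.card_le_one_iff_subsingleton]
  refine ⟨fun a b => Subtype.ext ?_⟩
  obtain ⟨x, hx, hxa⟩ := h.tr a
  obtain ⟨y, hy, hyb⟩ := h.tr b
  have ha : g • (a : Ω) = a := a.2
  have hb : g • (b : Ω) = b := b.2
  have h1 : x⁻¹ * g * x ∈ EE Q δ := by
    refine ⟨?_, ?_⟩
    · rw [Subgroup.normalizer_eq_top_iff.mpr hn]; trivial
    · change (x⁻¹ * g * x) • δ = δ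
      rw [mul_smul, mul_smul, hxa, ha, inv_smul_eq_iff, hxa]
  have h2 : x⁻¹ * g * x ≠ 1 := by
    intro h3
    apply hg
    have : g = x * (x⁻¹ * g * x) * x⁻¹ := by group
    rw [this, h3]; group
  set b' := x⁻¹ * g * x with hb'
  have hδ : b' • δ = δ := h1.2
  have hw : x⁻¹ * y ∈ Q := mul_mem (inv_mem hx) hy
  have h3 : b' * (x⁻¹ * y) = (x⁻¹ * y) * b' := by
    have h4 : (x⁻¹ * y)⁻¹ * (b' * (x⁻¹ * y) * b'⁻¹) = 1 := by
      refine h.reg _ (mul_mem (inv_mem hw) (hn.conj_mem _ hw b')) δ ?_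
      have h5 : b'⁻¹ • δ = δ := inv_smul_eq_iff.mpr hδ.symm
      rw [mul_smul, inv_smul_eq_iff, mul_smul, h5, hb']
      simp only [mul_smul, smul_inv_smul, hyb, hb]
    rw [inv_mul_eq_one] at h4
    calc b' * (x⁻¹ * y) = (b' * (x⁻¹ * y) * b'⁻¹) * b' := by group
      _ = _ := by rw [← h4]
  have h6 := h.lin.semi h1 h2 _ hw h3
  rw [inv_mul_eq_one] at h6
  rw [← hxa, ← hyb, h6]
end

end Cfsg.Lib.DRG
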